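import Cfsg.Agent.H384.TwoTransOf
import Cfsg.Agent.H250.EqD.DdN
import Cfsg.Agent.H284.SepOrd
import Cfsg.Agent.H400.LieSimple
import Cfsg.Agent.H902.Enum
import Cfsg.Agent.S0243
import Cfsg.Agent.S0252
import Cfsg.Agent.S0254
import Cfsg.Agent.S0256

/-!
# Simple groups of Lie type: the 2-transitive actions (from HUB H1)
-/

set_option autoImplicit false

namespace Cfsg.Agent.H59.LieTwo

open Cfsg Cfsg.Agent.OrdDiv Cfsg.Agent.H902 MulAction
open Cfsg.Agent.H384.TwoTrans

universe u v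

theorem fact_eq {N v c p : ℕ} (hp : p.Prime) (h : N = p ^ v * c) (hc : ¬ p ∣ c) : N.factorization p = v := by
  have hc0 : c ≠ 0 := by rintro rfl; exact hc (dvd_zero p)
  rw [h, Nat.factorization_mul (pow_ne_zero _ hp.ne_zero) hc0, Finsupp.add_apply, hp.factorization_pow,
    Finsupp.single_eq_same, Nat.factorization_eq_zero_of_not_dvd hc, add_zero]

theorem no_two {X : Art.Sh} {f N v c : ℕ} (h : Art.Real X 2 f N) (hN : N = 2 ^ v * c) (hc : ¬ 2 ∣ c)
    (hck : ∀ b ∈ Art.ents 2 v, Art.val 2 b ≠ N) : False := by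
  have h1 := fact_eq Nat.prime_two hN hc
  have h2 := Art.P_prime_exp h
  rw [h1] at h2
  exact hck _ (Art.mem_ents h h2) (Art.val_eq h)

theorem ck_m11 : ∀ b ∈ Art.ents 2 4, Art.val 2 b ≠ 7920 := by decide +kernel
theorem ck_m12 : ∀ b ∈ Art.ents 2 6, Art.val 2 b ≠ 95040 := by decide +kernel
theorem ck_m22 : ∀ b ∈ Art.ents 2 7, Art.val 2 b ≠ 443520 := by decide +kernel
theorem ck_m23 : ∀ b ∈ Art.ents 2 7, Art.val 2 b ≠ 10200960 := by decide +kernel
theorem ck_m24 : ∀ b ∈ Art.ents 2 10, Art.val 2 b ≠ 244823040 := by decide +kernel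
theorem ck_hs : ∀ b ∈ Art.ents 2 9, Art.val 2 b ≠ 44352000 := by decide +kernel
theorem ck_co3 : ∀ b ∈ Art.ents 2 10, Art.val 2 b ≠ 495766656000 := by decide +kernel

section Spor
variable {S : Type u} [Group S] {p : ℕ}

theorem no_spor (T : OrderTable.{u}) (hp : p.Prime) (h : IsLieTypeChar p S) (g : Grp) {N v c : ℕ}
    (hg : (g, N) ∈ spor) (hS : OrdDiv.Real g S) (hN : N = 2 ^ v * c) (hc : ¬ 2 ∣ c)
    (hck : ∀ b ∈ Art.ents 2 v, Art.val 2 b ≠ N) : False := by
  by_cases hp2 : p = 2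
  · subst hp2
    obtain ⟨X, f, hX⟩ := Cfsg.Agent.H284.SepOrd.real_of_lie T hp h
    rw [T.spor S (g, N) hg hS] at hX
    exact no_two hX hN hc hck
  · exact Cfsg.Agent.H284.SepOrd.spor_mem T hp hp2 h hg hS

theorem no_m11 (T : OrderTable.{u}) (hp : p.Prime) (h : IsLieTypeChar p S) (hS : Spor.IsoM11 S) : False :=
  no_spor T hp h .m11 (N := 7920) (v := 4) (c := 495) (by decide) hS (by norm_num) (by norm_num) ck_m11
theorem no_m12 (T : OrderTable.{u}) (hp : p.Prime) (h : IsLieTypeChar p S) (hS : Spor.IsoM12 S) : False :=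
  no_spor T hp h .m12 (N := 95040) (v := 6) (c := 1485) (by decide) hS (by norm_num) (by norm_num) ck_m12
theorem no_m22 (T : OrderTable.{u}) (hp : p.Prime) (h : IsLieTypeChar p S) (hS : Spor.IsoM22 S) : False :=
  no_spor T hp h .m22 (N := 443520) (v := 7) (c := 3465) (by decide) hS (by norm_num) (by norm_num) ck_m22
theorem no_m23 (T : OrderTable.{u}) (hp : p.Prime) (h : IsLieTypeChar p S) (hS : Spor.IsoM23 S) : False :=
  no_spor T hp h .m23 (N := 10200960) (v := 7) (c := 79695) (by decide) hS (by norm_num) (by norm_num) ck_m23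
theorem no_m24 (T : OrderTable.{u}) (hp : p.Prime) (h : IsLieTypeChar p S) (hS : Spor.IsoM24 S) : False :=
  no_spor T hp h .m24 (N := 244823040) (v := 10) (c := 239085) (by decide) hS (by norm_num) (by norm_num) ck_m24
theorem no_hs (T : OrderTable.{u}) (hp : p.Prime) (h : IsLieTypeChar p S) (hS : Spor.IsoHS S) : False :=
  no_spor T hp h .hs (N := 44352000) (v := 9) (c := 86625) (by decide) hS (by norm_num) (by norm_num) ck_hs
theorem no_co3 (T : OrderTable.{u}) (hp : p.Prime) (h : IsLieTypeChar p S) (hS : Spor.IsoCo3 S) : False :=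
  no_spor T hp h .co3 (N := 495766656000) (v := 10) (c := 484147125) (by decide) hS (by norm_num) (by norm_num) ck_co3

theorem alt_deg (T : OrderTable.{u}) (hp : p.Prime) (h : IsLieTypeChar p S) {n : ℕ} (hn : 5 ≤ n)
    (e : S ≃* ↥(alternatingGroup (Fin n))) : n = 5 ∨ n = 6 ∨ n = 8 := by
  obtain ⟨X, f, hX⟩ := Cfsg.Agent.H284.SepOrd.real_of_lie T hp h
  have hc := alt_card hn e
  rcases Art.alt_lie hX hn hc.symm with h1 | h1 | h1
  · rw [h1] at hc
    exact Or.inl (Art.alt_inj (M := 60) hn hc.symm (by decide))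
  · rw [h1] at hc
    exact Or.inr (Or.inl (Art.alt_inj (M := 360) hn hc.symm (by decide)))
  · rw [h1] at hc
    exact Or.inr (Or.inr (Art.alt_inj (M := 20160) hn hc.symm (by decide)))

/-- the order is not a prime number -/
theorem not_prime (T : OrderTable.{u}) (hp : p.Prime) (h : IsLieTypeChar p S) (hq : (Nat.card S).Prime) : False := by
  obtain ⟨X, f, hX⟩ := Cfsg.Agent.H284.SepOrd.real_of_lie T hp h
  have h1 := hX.P_self
  have h2 := Art.NN_pos hX
  have h3 := Art.P_prime_exp hX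
  have h4 : p ∣ Nat.card S := by
    apply Nat.dvd_of_factorization_pos
    rw [← h3]
    exact (Nat.mul_pos hX.hf h2).ne'
  have h5 : Nat.card S = p := ((Nat.prime_dvd_prime_iff_eq hp hq).1 h4).symm
  have h6 : (Nat.card S).factorization p = 1 := by rw [h5, hp.factorization_self]
  rw [h6] at h3
  have hf : f = 1 := Nat.eq_one_of_mul_eq_one_right h3
  have hNN : Art.NN X = 1 := Nat.eq_one_of_mul_eq_one_left h3
  have hok := hX.ok
  have heq := hX.eq
  rw [hf, pow_one, hNN, pow_one] at heq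
  rw [h5, mul_comm] at heq
  have hdd : Art.dd X p = Art.num X p := Nat.eq_of_mul_eq_mul_left hp.pos heq
  have hp2 := hp.two_le
  cases X with
  | L n =>
    simp only [Art.NN, Art.Ok] at hNN hok
    have hn : n = 2 := by
      by_contra hne
      have : 3 ≤ n := by omega
      have := Cfsg.Agent.H902.Art.half_ge (n := n) (by omega)
      omega
    subst hn
    simp only [Art.dd, Art.num] at hdd
    rw [Finset.prod_range_one] at hdd
    have h8 := hok.2 rfl
    rw [hf, pow_one] at h8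
    have h9 : Nat.gcd 2 (p - 1) ≤ 2 := Nat.gcd_le_left _ (by norm_num)
    have h10 : 16 ≤ p ^ 2 := by nlinarith
    simp only [zero_add] at hdd
    omega
  | C m =>
    simp only [Art.NN, Art.Ok] at hNN hok
    nlinarith [hok.1]
  | U n =>
    simp only [Art.NN, Art.Ok] at hNN hok
    have := Cfsg.Agent.H902.Art.half_ge (n := n) (by omega)
    omega
  | D m =>
    simp only [Art.NN, Art.Ok] at hNN hok
    obtain ⟨k, rfl⟩ := Nat.exists_eq_add_of_le' hok
    rw [Nat.add_sub_assoc (by norm_num)] at hNN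
    nlinarith
  | DD m =>
    simp only [Art.NN, Art.Ok] at hNN hok
    obtain ⟨k, rfl⟩ := Nat.exists_eq_add_of_le' hok
    rw [Nat.add_sub_assoc (by norm_num)] at hNN
    nlinarith
  | _ => simp only [Art.NN] at hNN; omega

end Spor

/-- a nonabelian simple group acting faithfully and 2-transitively -/
theorem as_top {G : Type u} {Ω : Type v} [Group G] [Finite G] [MulAction G Ω] [FaithfulSMul G Ω] [Finite Ω]
    [IsSimpleGroup G] (hna : ¬ IsMulCommutative G) (h2 : IsMultiplyPretransitive G Ω 2) :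
    AS G Ω (⊤ : Subgroup G) where
  finG := inferInstance
  finΩ := inferInstance
  faithful := inferInstance
  two := h2
  normal := inferInstance
  simple := (Subgroup.topEquiv (G := G)).isSimpleGroup
  nonab := fun h => hna ⟨⟨fun a b => by
    have := h.is_comm.comm (⟨a, trivial⟩ : (⊤ : Subgroup G)) ⟨b, trivial⟩
    exact congrArg Subtype.val this⟩⟩
  cent := by
    rw [eq_bot_iff]
    intro x hx
    have hx' : x ∈ Subgroup.center G := by
      rw [Subgroup.mem_center_iff]
      intro g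
      exact Subgroup.mem_centralizer_iff.1 hx g trivial
    rcases (inferInstance : (Subgroup.center G).Normal).eq_bot_or_eq_top with h | h
    · rwa [h] at hx'
    · exact absurd ⟨⟨fun a b => ((Subgroup.mem_center_iff.1 (h ▸ Subgroup.mem_top b)) a)⟩⟩ hna

theorem no_28 {G : Type u} {Ω : Type v} [Group G] [MulAction G Ω] (A : AS G Ω (⊤ : Subgroup G))
    (hn : Nat.card Ω = 28) (hG : Nat.card G = 504) : False := by
  have := A.finΩ
  have := A.finG
  have hne := A.nontrivialΩ
  obtain ⟨a, b, hab⟩ := exists_pair_ne Ω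
  have h1 := A.card_mul a
  rw [Subgroup.card_top, hn, hG] at h1
  have h2 : Nat.card ↥(stabilizer ↥(⊤ : Subgroup G) a) = 18 := by omega
  have h3 := A.card_orbit_dvd' a b
  rw [h2] at h3
  have h4 : 27 ≤ Nat.card (orbit (stabilizer ↥(⊤ : Subgroup G) a) b) := by
    have h5 : ({a} : Set Ω)ᶜ ⊆ orbit (stabilizer ↥(⊤ : Subgroup G) a) b := by
      intro x hx
      have hx' : a ≠ x := fun h => hx h.symm
      obtain ⟨g, hg1, hg2⟩ := A.two' a b a x hab hx'
      exact ⟨⟨⟨g, trivial⟩, hg1⟩, hg2⟩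
    have h6 := Set.ncard_le_ncard h5 (Set.toFinite _)
    rw [Set.ncard_compl, Set.ncard_singleton, hn] at h6
    exact h6
  have h7 := Nat.le_of_dvd (by norm_num) h3
  omega

theorem main (T : OrderTable.{u})
    (H : ∀ (G : Type u) (Ω : Type v) [Group G] [MulAction G Ω] (T : Subgroup G), AS G Ω T → ∀ r : ℕ, r.Prime →
      IsLieTypeChar r ↥T → Known2 ↥T (Nat.card Ω))
    {G : Type u} {Ω : Type v} [Group G] [Finite G] [MulAction G Ω] [FaithfulSMul G Ω] [Finite Ω] {r : ℕ}
    (hr : r.Prime) (hG : IsLieTypeChar r G) (h2 : IsMultiplyPretransitive G Ω 2) :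
    (∃ (F : Type) (_ : Field F) (_ : Fintype F) (l : ℕ), 3 ≤ l ∧ Nonempty (G ≃* Matrix.ProjectiveSpecialLinearGroup (Fin l) F) ∧ Nat.card Ω * (Fintype.card F - 1) = Fintype.card F ^ l - 1) ∨
    (∃ (F : Type) (_ : Field F) (_ : Fintype F), 4 ≤ Fintype.card F ∧ Nonempty (G ≃* Matrix.ProjectiveSpecialLinearGroup (Fin 2) F) ∧ Nat.card Ω = Fintype.card F + 1) ∨
    (∃ (F : Type) (_ : Field F) (_ : Fintype F) (q : ℕ), 3 ≤ q ∧ Fintype.card F = q ^ 2 ∧ Nonempty (G ≃* Cfsg.PSU 3 F q) ∧ Nat.card Ω = q ^ 3 + 1) ∨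
    (∃ (F : Type) (_ : Field F) (_ : Fintype F) (m : ℕ), 1 ≤ m ∧ Fintype.card F = 2 ^ (2 * m + 1) ∧ Nonempty (G ≃* ↥(Cfsg.Lie.Sz F (2 ^ (m + 1)))) ∧ Nat.card Ω = Fintype.card F ^ 2 + 1) ∨
    (∃ (K : Type) (_ : Field K) (_ : Fintype K) (m : ℕ), 1 ≤ m ∧ Fintype.card K = 3 ^ (2 * m + 1) ∧ Nonempty (G ≃* ↥(Cfsg.Lie.twistedG2 K (3 ^ m))) ∧ Nat.card Ω = Fintype.card K ^ 3 + 1) ∨
    (∃ (F : Type) (_ : Field F) (_ : Fintype F), Fintype.card F = 9 ∧ Nonempty (G ≃* Matrix.ProjectiveSpecialLinearGroup (Fin 2) F) ∧ Nat.card Ω = 6) ∨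
    (∃ (F : Type) (_ : Field F) (_ : Fintype F), Fintype.card F = 11 ∧ Nonempty (G ≃* Matrix.ProjectiveSpecialLinearGroup (Fin 2) F) ∧ Nat.card Ω = 11) ∨
    (∃ (F : Type) (_ : Field F) (_ : Fintype F), Fintype.card F = 2 ∧ Nonempty (G ≃* Matrix.ProjectiveSpecialLinearGroup (Fin 4) F) ∧ Nat.card Ω = 8) ∨
    (∃ (F : Type) (_ : Field F) (_ : Fintype F) (n : ℕ), 3 ≤ n ∧ Fintype.card F = 2 ∧ Nonempty (G ≃* Cfsg.PSp n F) ∧ (Nat.card Ω = 2 ^ (n - 1) * (2 ^ n + 1) ∨ Nat.card Ω = 2 ^ (n - 1) * (2 ^ n - 1))) := by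
  have hs := Cfsg.Agent.H400.LieSimple.isSimple_of_lie hG
  have hna : ¬ IsMulCommutative G := by
    intro hc
    let _ : CommGroup G := { (inferInstance : Group G) with mul_comm := hc.is_comm.comm }
    exact not_prime T hr hG IsSimpleGroup.prime_card
  have A := as_top (Ω := Ω) hna h2
  have hG' : IsLieTypeChar r ↥(⊤ : Subgroup G) :=
    Cfsg.Agent.OddHalf.Known.isLieTypeChar_congr Subgroup.topEquiv.symm hG
  have K : Known2 G (Nat.card Ω) := (H G Ω ⊤ A r hr hG').congr Subgroup.topEquiv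
  have hf : Finite G := inferInstance
  generalize hN : Nat.card Ω = N at K ⊢
  cases K with
  | alt n hn e =>
    obtain ⟨e⟩ := e
    rcases alt_deg T hr hG hn e with rfl | rfl | rfl
    · right; left
      obtain ⟨F, _, _, hF⟩ : ∃ (F : Type) (_ : Field F) (_ : Fintype F), Fintype.card F = 4 :=
        ⟨GaloisField 2 2, inferInstance, Fintype.ofFinite _, by
          rw [← @Nat.card_eq_fintype_card _ (Fintype.ofFinite _), GaloisField.card 2 2 (by norm_num)]; norm_num⟩
      obtain ⟨f⟩ := S0252.result hF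
      exact ⟨F, _, _, hF.ge, ⟨e.trans f.symm⟩, by rw [hF]⟩
    · right; right; right; right; right; left
      obtain ⟨F, _, _, hF⟩ : ∃ (F : Type) (_ : Field F) (_ : Fintype F), Fintype.card F = 9 :=
        ⟨GaloisField 3 2, inferInstance, Fintype.ofFinite _, by
          rw [← @Nat.card_eq_fintype_card _ (Fintype.ofFinite _), GaloisField.card 3 2 (by norm_num)]; norm_num⟩
      obtain ⟨f⟩ := S0254.result hF
      exact ⟨F, _, _, hF, ⟨e.trans f.symm⟩, rfl⟩
    · right; right; right; right; right; right; right; left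
      have : Fact (Nat.Prime 2) := ⟨Nat.prime_two⟩
      obtain ⟨f⟩ := S0256.result (F := ZMod 2) (ZMod.card 2)
      exact ⟨ZMod 2, _, _, ZMod.card 2, ⟨e.trans f.symm⟩, rfl⟩
  | psl F d n hd hd2 e hn =>
    by_cases h3 : d = 2
    · subst h3
      right; left
      have h4 := hd2 rfl
      refine ⟨F, _, _, h4, e, ?_⟩
      have h5 : Fintype.card F ^ 2 - 1 = (Fintype.card F + 1) * (Fintype.card F - 1) := by
        rw [← Nat.sq_sub_sq, one_pow]
      rw [h5] at hn
      exact Nat.eq_of_mul_eq_mul_right (by omega) hn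
    · left
      exact ⟨F, _, _, d, by omega, e, hn⟩
  | sp F m n hF hm e hn =>
    right; right; right; right; right; right; right; right
    exact ⟨F, _, _, m, hm, hF, e, hn⟩
  | psu F q n hq hF e hn =>
    right; right; left
    exact ⟨F, _, _, q, hq, hF, e, hn⟩
  | sz F m n hm hF e hn =>
    right; right; right; left
    exact ⟨F, _, _, m, hm, hF, e, hn⟩
  | ree K m n hm hK e hn =>
    right; right; right; right; left
    exact ⟨K, _, _, m, hm, hK, e, hn⟩
  | psl2_8 F hF e =>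
    exfalso
    obtain ⟨e⟩ := e
    apply no_28 A hN
    rw [Nat.card_congr e.toEquiv]
    have h := Cfsg.Agent.S0243.result hF 2 le_rfl
    rw [Fin.prod_univ_two] at h
    norm_num at h ⊢
    omega
  | psl2_9 F hF e =>
    right; right; right; right; right; left
    exact ⟨F, _, _, hF, e, rfl⟩
  | psl2_11 F hF e =>
    right; right; right; right; right; right; left
    exact ⟨F, _, _, hF, e, rfl⟩
  | psl4_2 F hF e =>
    right; right; right; right; right; right; right; left
    exact ⟨F, _, _, hF, e, rfl⟩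
  | a7 e =>
    obtain ⟨e⟩ := e
    exfalso
    have := alt_deg T hr hG (by norm_num) e
    omega
  | m11 h => exact (no_m11 T hr hG h).elim
  | m11' h => exact (no_m11 T hr hG h).elim
  | m12 h => exact (no_m12 T hr hG h).elim
  | m22 h => exact (no_m22 T hr hG h).elim
  | m23 h => exact (no_m23 T hr hG h).elim
  | m24 h => exact (no_m24 T hr hG h).elim
  | hs h => exact (no_hs T hr hG h).elim
  | co3 h => exact (no_co3 T hr hG h).elim

end Cfsg.Agent.H59.LieTwo
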